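import Cfsg.Agent.H477.HC.Groups
import Cfsg.Agent.H477.HC.Levi
import Cfsg.Agent.H720.HT.DD

/-!
# S4933, own characteristic: the classical groups of large rank have `P'' ≠ 1` (helper652)

* `flagU`, `isPGroup_flagU` : the unipotent group of a flag;
* `DDC p G` : a double commutator of elements of a `p`-subgroup of `G` that is not central; `DDC.quot` : `DD p (G ⧸ Z(G))`;
* `ddc_frame` : isometry groups with a hyperbolic frame of rank 3 and a Siegel element `S(e, w, s)`, `s ≠ 0`.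
-/

set_option autoImplicit false
set_option linter.unusedSectionVars false

namespace Cfsg.Agent.H652.HT

open Cfsg Subgroup Module
open scoped commutatorElement
open Cfsg.Agent.H720.HT (DD)
open Cfsg.Agent.H477.HC

universe u v w

section flag

variable {K : Type u} [Field K] {V : Type v} [AddCommGroup V] [Module K V]

/-- the unipotent group of a flag -/
def flagU (Vs : ℕ → Submodule K V) (hV : ∀ i, Vs (i + 1) ≤ Vs i) : Subgroup (V ≃ₗ[K] V) where
  carrier := {g | ∀ i, ∀ v ∈ Vs i, g v - v ∈ Vs (i + 1) ∧ g⁻¹ v - v ∈ Vs (i + 1)}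
  one_mem' := by
    intro i v _
    rw [inv_one]
    have e : (1 : V ≃ₗ[K] V) v - v = 0 := sub_self v
    rw [e]
    exact ⟨zero_mem _, zero_mem _⟩
  mul_mem' := by
    intro g h hg hh i v hv
    have key : ∀ (a b : V ≃ₗ[K] V), (∀ v ∈ Vs i, a v - v ∈ Vs (i + 1)) → (∀ v ∈ Vs i, b v - v ∈ Vs (i + 1)) →
        (a * b) v - v ∈ Vs (i + 1) := by
      intro a b ha hb
      have h1 := hb v hv
      have h2 : b v ∈ Vs i := by
        have := add_mem (hV i h1) hv
        rwa [sub_add_cancel] at this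
      have h3 := ha _ h2
      have e : (a * b) v - v = (a (b v) - b v) + (b v - v) := by
        rw [LinearEquiv.mul_apply]; abel
      rw [e]
      exact add_mem h3 h1
    refine ⟨key g h (fun v hv => (hg i v hv).1) fun v hv => (hh i v hv).1, ?_⟩
    rw [mul_inv_rev]
    exact key h⁻¹ g⁻¹ (fun v hv => (hh i v hv).2) fun v hv => (hg i v hv).2
  inv_mem' := by
    intro g hg i v hv
    rw [inv_inv]
    exact ⟨(hg i v hv).2, (hg i v hv).1⟩

theorem mem_flagU [FiniteDimensional K V] {Vs : ℕ → Submodule K V} {hV : ∀ i, Vs (i + 1) ≤ Vs i} {g : V ≃ₗ[K] V}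
    (h : ∀ i, ∀ v ∈ Vs i, g v - v ∈ Vs (i + 1)) : g ∈ flagU Vs hV := by
  intro i v hv
  refine ⟨h i v hv, ?_⟩
  have hmap : ∀ v ∈ Vs i, (g : V →ₗ[K] V) v ∈ Vs i := fun v hv => by
    have := add_mem (hV i (h i v hv)) hv
    rwa [sub_add_cancel] at this
  have hinj : Function.Injective ((g : V →ₗ[K] V).restrict hmap) := by
    intro x y hxy
    apply Subtype.ext
    have := congrArg Subtype.val hxy
    exact g.injective this
  obtain ⟨x, hx⟩ := (LinearMap.injective_iff_surjective.1 hinj) ⟨v, hv⟩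
  have hx' : g (x : V) = v := congrArg Subtype.val hx
  have h1 : g⁻¹ v = (x : V) := by
    rw [← hx']
    exact g.symm_apply_apply _
  rw [h1]
  have h2 := h i x x.2
  rw [hx'] at h2
  have := neg_mem h2
  rwa [neg_sub] at this

theorem isPGroup_flagU {p : ℕ} [hp : Fact p.Prime] [CharP K p] [Nontrivial V] {Vs : ℕ → Submodule K V}
    {hV : ∀ i, Vs (i + 1) ≤ Vs i} (h0 : Vs 0 = ⊤) {n : ℕ} (hn : Vs n = ⊥) : IsPGroup p (flagU Vs hV) := by
  rintro ⟨g, hg⟩
  refine ⟨n, Subtype.ext ?_⟩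
  show g ^ p ^ n = 1
  have : CharP (Module.End K V) p := charP_of_injective_algebraMap (algebraMap K (Module.End K V)).injective p
  let D : Module.End K V := (g : V →ₗ[K] V) - 1
  have hD : ∀ i v, (D ^ i) v ∈ Vs i := by
    intro i
    induction i with
    | zero => intro v; rw [h0]; trivial
    | succ i ih =>
      intro v
      rw [pow_succ']
      exact (hg i _ (ih v)).1
  have hDn : D ^ n = 0 := by
    ext v
    have := hD n v
    rw [hn, Submodule.mem_bot] at this
    rw [this]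
    rfl
  have h1 : D ^ p ^ n = 0 := by
    have hle : n ≤ p ^ n := (Nat.lt_pow_self hp.out.one_lt).le
    obtain ⟨k, hk⟩ := Nat.exists_eq_add_of_le hle
    rw [hk, pow_add, hDn, zero_mul]
  have h2 : ((g : V →ₗ[K] V) : Module.End K V) = 1 + D := by
    show _ = 1 + ((g : V →ₗ[K] V) - 1)
    abel
  have h3 : ((g : V →ₗ[K] V) : Module.End K V) ^ p ^ n = 1 := by
    rw [h2, add_pow_char_pow_of_commute (R := Module.End K V) p n (Commute.one_left D), h1, one_pow, add_zero]
  apply LinearEquiv.ext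
  intro v
  have h4 : ∀ m : ℕ, (g ^ m) v = (((g : V →ₗ[K] V) : Module.End K V) ^ m) v := by
    intro m
    induction m generalizing v with
    | zero => rfl
    | succ m ih =>
      rw [pow_succ, pow_succ]
      exact ih (g v)
  rw [h4, h3]
  rfl

end flag

section ddc

/-- a double commutator of elements of a `p`-subgroup which is not central -/
def DDC (p : ℕ) (G : Type u) [Group G] : Prop :=
  ∃ Q : Subgroup G, IsPGroup p Q ∧ ∃ a ∈ Q, ∃ b ∈ Q, ∃ c ∈ Q, ∃ d ∈ Q, ∃ r : G,
    r * ⁅⁅a, b⁆, ⁅c, d⁆⁆ ≠ ⁅⁅a, b⁆, ⁅c, d⁆⁆ * r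

theorem DDC.quot {p : ℕ} {G : Type u} [Group G] (h : DDC p G) : DD p (G ⧸ Subgroup.center G) := by
  obtain ⟨Q, hQ, a, ha, b, hb, c, hc, d, hd, r, hr⟩ := h
  refine DD.of_mem (Q.map (QuotientGroup.mk' (Subgroup.center G))) (hQ.map _) (mem_map_of_mem _ ha)
    (mem_map_of_mem _ hb) (mem_map_of_mem _ hc) (mem_map_of_mem _ hd) fun h1 => hr ?_
  rw [← map_commutatorElement, ← map_commutatorElement, ← map_commutatorElement] at h1
  have h2 : ⁅⁅a, b⁆, ⁅c, d⁆⁆ ∈ Subgroup.center G := (QuotientGroup.eq_one_iff _).1 h1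
  exact (Subgroup.mem_center_iff.1 h2 r)

theorem DDC.of_equiv {p : ℕ} {G : Type u} {H : Type v} [Group G] [Group H] (e : G ≃* H) (h : DDC p G) : DDC p H := by
  obtain ⟨Q, hQ, a, ha, b, hb, c, hc, d, hd, r, hr⟩ := h
  refine ⟨Q.map e.toMonoidHom, hQ.map _, e a, mem_map_of_mem e.toMonoidHom ha, e b, mem_map_of_mem e.toMonoidHom hb,
    e c, mem_map_of_mem e.toMonoidHom hc, e d, mem_map_of_mem e.toMonoidHom hd, e r, fun h1 => hr ?_⟩
  rw [← map_commutatorElement, ← map_commutatorElement, ← map_commutatorElement, ← map_mul, ← map_mul] at h1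
  exact e.injective h1

/-- all elements in a subgroup `N` -/
def DDCN (p : ℕ) (G : Type u) [Group G] (N : Subgroup G) : Prop :=
  ∃ Q : Subgroup G, IsPGroup p Q ∧ ∃ a ∈ Q, ∃ b ∈ Q, ∃ c ∈ Q, ∃ d ∈ Q, a ∈ N ∧ b ∈ N ∧ c ∈ N ∧ d ∈ N ∧ ∃ r ∈ N,
    r * ⁅⁅a, b⁆, ⁅c, d⁆⁆ ≠ ⁅⁅a, b⁆, ⁅c, d⁆⁆ * r

theorem DDCN.top {p : ℕ} {G : Type u} [Group G] {N : Subgroup G} (h : DDCN p G N) : DDC p G := by
  obtain ⟨Q, hQ, a, ha, b, hb, c, hc, d, hd, -, -, -, -, r, -, hr⟩ := h
  exact ⟨Q, hQ, a, ha, b, hb, c, hc, d, hd, r, hr⟩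

theorem DDCN.comm {p : ℕ} {G : Type u} {H : Type v} [Group G] [Group H] (e : G ≃* H)
    (h : DDCN p G (_root_.commutator G)) : DDCN p H (_root_.commutator H) := by
  have key : ∀ x ∈ _root_.commutator G, e x ∈ _root_.commutator H := by
    intro x hx
    have h1 : (_root_.commutator G).map e.toMonoidHom ≤ _root_.commutator H := by
      rw [commutator_def, commutator_def, map_commutator]
      exact commutator_mono le_top le_top
    exact h1 (mem_map_of_mem e.toMonoidHom hx)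
  obtain ⟨Q, hQ, a, ha, b, hb, c, hc, d, hd, ha', hb', hc', hd', r, hr', hr⟩ := h
  refine ⟨Q.map e.toMonoidHom, hQ.map _, e a, mem_map_of_mem e.toMonoidHom ha, e b, mem_map_of_mem e.toMonoidHom hb,
    e c, mem_map_of_mem e.toMonoidHom hc, e d, mem_map_of_mem e.toMonoidHom hd, key a ha', key b hb', key c hc',
    key d hd', e r, key r hr', fun h1 => hr ?_⟩
  rw [← map_commutatorElement, ← map_commutatorElement, ← map_commutatorElement, ← map_mul, ← map_mul] at h1
  exact e.injective h1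

/-- from elements of a subgroup -/
theorem DDCN.ddc {p : ℕ} {G : Type u} [Group G] {N : Subgroup G} (h : DDCN p G N) : DDC p N := by
  obtain ⟨Q, hQ, a, ha, b, hb, c, hc, d, hd, ha', hb', hc', hd', r, hr', hr⟩ := h
  refine ⟨Q.subgroupOf N, hQ.comap_of_injective _ N.subtype_injective, ⟨a, ha'⟩, ha, ⟨b, hb'⟩, hb, ⟨c, hc'⟩, hc,
    ⟨d, hd'⟩, hd, ⟨r, hr'⟩, fun h => hr ?_⟩
  have h2 := congrArg N.subtype h
  rw [map_mul, map_mul, map_commutatorElement, map_commutatorElement, map_commutatorElement] at h2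
  exact h2

end ddc

section form

open Cfsg.Agent.H477.HC.CForm

variable {K : Type u} [Field K] {V : Type v} [AddCommGroup V] [Module K V] (F : CForm K V)

/-- root elements -/
def IsR (g : F.iso) (c b : V) : Prop :=
  ∀ v, (g : V ≃ₗ[K] V) v = v + F.B v b • c - (F.ε⁻¹ * F.B v c) • b

/-- Siegel elements -/
def IsS (g : F.iso) (e w : V) (s : K) : Prop :=
  ∀ v, (g : V ≃ₗ[K] V) v = v + F.B v e • w - (F.ε⁻¹ * F.B v w) • e + (s * F.B v e) • e

variable {F}

theorem iso_ext {g h : F.iso} (H : ∀ v, (g : V ≃ₗ[K] V) v = (h : V ≃ₗ[K] V) v) : g = h :=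
  Subtype.ext (LinearEquiv.ext H)

theorem IsS.unique {g h : F.iso} {e w : V} {s : K} (hg : IsS F g e w s) (hh : IsS F h e w s) : g = h :=
  iso_ext fun v => by rw [hg, hh]

theorem IsS.conj {g : F.iso} {e w : V} {s : K} (hg : IsS F g e w s) (h : F.iso) :
    IsS F (h * g * h⁻¹) ((h : V ≃ₗ[K] V) e) ((h : V ≃ₗ[K] V) w) s := by
  intro v
  rw [mul_apply', mul_apply', hg, B_inv, B_inv]
  simp only [map_add, map_sub, map_smul]
  rw [apply_inv']

theorem exists_siegel [FiniteDimensional K V] {e w : V} {s : K} (he : F.Sing e) (hwe : F.B w e = 0)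
    (h1 : s + F.ε⁻¹ * F.σ s + F.ε⁻¹ * F.B w w = 0)
    (h2 : ∀ x, x * F.σ x * F.Q w + F.T (F.σ s * (x * F.σ x)) = 0) : ∃ g : F.iso, IsS F g e w s := by
  have hew := F.B_eq_zero hwe
  have hε := F.ε_ne
  let f : V →ₗ[K] V :=
    { toFun := fun v => v + F.B v e • w - (F.ε⁻¹ * F.B v w) • e + (s * F.B v e) • e
      map_add' := fun x y => by
        rw [F.B_add_left, F.B_add_left]
        module
      map_smul' := fun a x => by
        rw [F.B_smul_left, F.B_smul_left, RingHom.id_apply]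
        module }
  refine F.exists_iso f (fun u v => ?_) (fun v => ?_)
  · change F.B (u + F.B u e • w - (F.ε⁻¹ * F.B u w) • e + (s * F.B u e) • e)
      (v + F.B v e • w - (F.ε⁻¹ * F.B v w) • e + (s * F.B v e) • e) = F.B u v
    simp only [F.B_sub_left, F.B_sub_right, F.B_add_left, F.B_add_right, F.B_smul_left, F.B_smul_right, hwe, hew, he.2,
      map_mul, F.σεi]
    rw [F.B_symm e v, F.B_symm w v]
    have h3 : F.ε * s + F.σ s + F.B w w = 0 := by
      have := congrArg (fun x => F.ε * x) h1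
      simp only [mul_add, mul_zero] at this
      rw [← mul_assoc, ← mul_assoc, mul_inv_cancel₀ hε, one_mul, one_mul] at this
      exact this
    have h4 : F.ε⁻¹ * F.ε = 1 := inv_mul_cancel₀ hε
    linear_combination (F.B u e * F.σ (F.B v e)) * h3 - (F.B u w * F.σ (F.B v e)) * h4
  · change F.Q (v + F.B v e • w - (F.ε⁻¹ * F.B v w) • e + (s * F.B v e) • e) = F.Q v
    have e1 : v + F.B v e • w - (F.ε⁻¹ * F.B v w) • e + (s * F.B v e) • e =
        v + (F.B v e • w + (s * F.B v e - F.ε⁻¹ * F.B v w) • e) := by module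
    rw [e1, F.Q_add, F.Q_add, F.Q_smul, F.Q_smul, he.1]
    simp only [F.B_add_right, F.B_smul_right, F.B_smul_left, hwe, mul_zero, F.T_zero, add_zero, map_mul, map_sub,
      F.σεi]
    have e2 : F.σ (F.B v e) * F.B v w + (F.σ s * F.σ (F.B v e) - F.ε * F.σ (F.B v w)) * F.B v e =
        (F.σ (F.B v e) * F.B v w - F.ε * F.σ (F.σ (F.B v e) * F.B v w)) + F.σ s * (F.B v e * F.σ (F.B v e)) := by
      rw [map_mul, F.σσ]; ring
    rw [e2, F.T_add, F.T_sub, F.T_symm, sub_self, zero_add]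
    linear_combination h2 (F.B v e)

theorem root_eq {c b c' b' : V} {g h : F.iso} (hg : IsR F g c b) (hh : IsR F h c' b') (hc : c = c') (hb : b = b') :
    g = h := iso_ext fun v => by rw [hg, hh, hc, hb]

section frame

variable {e f : Fin 3 → V}

/-- the commutator relation of the root elements `e_j ↦ e_j + e_i` -/
theorem root_comm (hee : ∀ i l, F.B (e i) (e l) = 0) (hff : ∀ i l, F.B (f i) (f l) = 0)
    (hef : ∀ i l, F.B (e i) (f l) = if i = l then 1 else 0) {i j l : Fin 3} (hij : i ≠ j) (hil : i ≠ l) (hlj : l ≠ j)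
    {x y z : F.iso} (hx : IsR F x (e i) (f l)) (hy : IsR F y (e l) (f j)) (hz : IsR F z (e i) (f j)) :
    ⁅x, y⁆ = z := by
  have hfe : ∀ i l, F.B (f i) (e l) = if i = l then F.ε else 0 := by
    intro i l
    rw [F.B_symm, hef]
    by_cases h : l = i
    · rw [if_pos h, if_pos h.symm, map_one, mul_one]
    · rw [if_neg h, if_neg (Ne.symm h), map_zero, mul_zero]
  have key : x * y = z * y * x := by
    apply iso_ext
    intro v
    rw [mul_apply', mul_apply', mul_apply', hx, hy, hz, hy, hx]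
    simp only [F.B_sub_left, F.B_add_left, F.B_smul_left, hee, hff, hef, hfe, if_pos, if_neg hij, if_neg hij.symm,
      if_neg hil, if_neg hil.symm, if_neg hlj, if_neg hlj.symm, mul_zero, sub_zero, add_zero, mul_one]
    have hε := F.ε_ne
    have h4 : F.ε⁻¹ * F.ε = 1 := inv_mul_cancel₀ hε
    match_scalars <;> first | ring1 | (linear_combination (0 : K) * h4) | (field_simp; ring1)
  rw [commutatorElement_def, mul_inv_eq_iff_eq_mul, mul_inv_eq_iff_eq_mul, key]

theorem B_symm_fe (hef : ∀ i l, F.B (e i) (f l) = if i = l then 1 else 0) (i l : Fin 3) :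
    F.B (f i) (e l) = if i = l then F.ε else 0 := by
  rw [F.B_symm, hef]
  by_cases h : l = i
  · rw [if_pos h, if_pos h.symm, map_one, mul_one]
  · rw [if_neg h, if_neg (Ne.symm h), map_zero, mul_zero]

/-- the flag of a frame of rank 3 -/
def frameFlag (F : CForm K V) (e : Fin 3 → V) : ℕ → Submodule K V
  | 0 => ⊤
  | 1 => LinearMap.ker (F.lf (e 0))
  | 2 => LinearMap.ker (F.lf (e 0)) ⊓ LinearMap.ker (F.lf (e 1))
  | 3 => LinearMap.ker (F.lf (e 0)) ⊓ LinearMap.ker (F.lf (e 1)) ⊓ LinearMap.ker (F.lf (e 2))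
  | 4 => Submodule.span K {e 0, e 1, e 2}
  | 5 => Submodule.span K {e 0, e 1}
  | 6 => Submodule.span K {e 0}
  | _ => ⊥

theorem mem_kerlf {v u : V} : v ∈ LinearMap.ker (F.lf u) ↔ F.B v u = 0 := by
  rw [LinearMap.mem_ker, CForm.lf_apply]

theorem span_le_ker {s : Set V} {u : V} (h : ∀ x ∈ s, F.B x u = 0) : Submodule.span K s ≤ LinearMap.ker (F.lf u) := by
  rw [Submodule.span_le]
  intro x hx
  exact mem_kerlf.2 (h x hx)

theorem frameFlag_anti (hee : ∀ i l, F.B (e i) (e l) = 0) : ∀ i, frameFlag F e (i + 1) ≤ frameFlag F e i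
  | 0 => le_top
  | 1 => inf_le_left
  | 2 => inf_le_left
  | 3 => by
    show Submodule.span K {e 0, e 1, e 2} ≤ _
    refine le_inf (le_inf ?_ ?_) ?_ <;>
    · apply span_le_ker
      rintro x (rfl | rfl | rfl) <;> exact hee _ _
  | 4 => by
    show Submodule.span K {e 0, e 1} ≤ Submodule.span K {e 0, e 1, e 2}
    apply Submodule.span_mono
    rintro x (rfl | rfl) <;> simp
  | 5 => by
    show Submodule.span K {e 0} ≤ Submodule.span K {e 0, e 1}
    apply Submodule.span_mono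
    rintro x rfl
    simp
  | 6 => bot_le
  | (n + 7) => le_refl _

theorem ddc_frame [FiniteDimensional K V] {p : ℕ} [Fact p.Prime] [CharP K p]
    (hee : ∀ i l, F.B (e i) (e l) = 0) (hff : ∀ i l, F.B (f i) (f l) = 0)
    (hef : ∀ i l, F.B (e i) (f l) = if i = l then 1 else 0) (hQe : ∀ i, F.Q (e i) = 0) (hQf : ∀ i, F.Q (f i) = 0)
    {w : V} {s : K} (hwe : ∀ i, F.B w (e i) = 0) (hwf : ∀ i, F.B w (f i) = 0) (hs : s ≠ 0)
    (h1 : s + F.ε⁻¹ * F.σ s + F.ε⁻¹ * F.B w w = 0)
    (h2 : ∀ x, x * F.σ x * F.Q w + F.T (F.σ s * (x * F.σ x)) = 0) : DDCN p F.iso (_root_.commutator F.iso) := by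
  have hfe := B_symm_fe (F := F) hef
  have hε := F.ε_ne
  have hew : ∀ i, F.B (e i) w = 0 := fun i => F.B_eq_zero (hwe i)
  have hfw : ∀ i, F.B (f i) w = 0 := fun i => F.B_eq_zero (hwf i)
  have he : ∀ i, F.Sing (e i) := fun i => ⟨hQe i, hee i i⟩
  have hf : ∀ i, F.Sing (f i) := fun i => ⟨hQf i, hff i i⟩
  have hX : ∀ i j, i ≠ j → ∃ g : F.iso, IsR F g (e i) (f j) := fun i j hij =>
    F.exists_root (he i) (hf j) (by rw [hef, if_neg hij])
  have h01 : (0 : Fin 3) ≠ 1 := by decide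
  have h02 : (0 : Fin 3) ≠ 2 := by decide
  have h12 : (1 : Fin 3) ≠ 2 := by decide
  obtain ⟨x01, X01⟩ := hX 0 1 h01
  obtain ⟨x02, X02⟩ := hX 0 2 h02
  obtain ⟨x10, X10⟩ := hX 1 0 h01.symm
  obtain ⟨x12, X12⟩ := hX 1 2 h12
  obtain ⟨x20, X20⟩ := hX 2 0 h02.symm
  obtain ⟨x21, X21⟩ := hX 2 1 h12.symm
  obtain ⟨S1, hS1⟩ := exists_siegel (he 0) (hwe 0) h1 h2
  -- actions
  have act : ∀ {i j : Fin 3} {g : F.iso}, IsR F g (e i) (f j) → ∀ l, (g : V ≃ₗ[K] V) (e l) =
      if l = j then e l + e i else e l := by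
    intro i j g hg l
    rw [hg, hef, hee]
    by_cases h : l = j
    · rw [if_pos h, if_pos h]; simp
    · rw [if_neg h, if_neg h]; simp
  have actw : ∀ {i j : Fin 3} {g : F.iso}, IsR F g (e i) (f j) → (g : V ≃ₗ[K] V) w = w := by
    intro i j g hg
    rw [hg, hwf, hwe]; simp
  have c02 : ⁅x01, x12⁆ = x02 := root_comm hee hff hef h02 h01 h12 X01 X12 X02
  have c01 : ⁅x02, x21⁆ = x01 := root_comm hee hff hef h01 h02 h12.symm X02 X21 X01
  have c12 : ⁅x10, x02⁆ = x12 := root_comm hee hff hef h12 h01.symm h02 X10 X02 X12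
  have c21 : ⁅x20, x01⁆ = x21 := root_comm hee hff hef h12.symm h02.symm h01 X20 X01 X21
  -- `A`
  obtain ⟨A, hAdef⟩ : ∃ A, A = x20 * S1 * x20⁻¹ := ⟨_, rfl⟩
  have hA : IsS F A (e 0 + e 2) w s := by
    rw [hAdef]
    have := hS1.conj x20
    rw [act X20, if_pos rfl, actw X20] at this
    exact this
  obtain ⟨C, hCdef⟩ : ∃ C, C = x12 * A * x12⁻¹ := ⟨_, rfl⟩
  have hC : IsS F C (e 0 + (e 2 + e 1)) w s := by
    rw [hCdef]
    have := hA.conj x12
    rw [map_add, act X12, act X12, if_pos rfl, if_neg h02, actw X12] at this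
    exact this
  have hbS : x12 * S1 * x12⁻¹ = S1 := by
    have := hS1.conj x12
    rw [act X12, if_neg h02, actw X12] at this
    exact this.unique hS1
  obtain ⟨A', hA'def⟩ : ∃ A', A' = x02 * A * x02⁻¹ := ⟨_, rfl⟩
  have hA' : IsS F A' (e 0 + (e 2 + e 0)) w s := by
    rw [hA'def]
    have := hA.conj x02
    rw [map_add, act X02, act X02, if_pos rfl, if_neg h02, actw X02] at this
    exact this
  obtain ⟨C', hC'def⟩ : ∃ C', C' = x02 * C * x02⁻¹ := ⟨_, rfl⟩
  have hC' : IsS F C' (e 0 + ((e 2 + e 0) + e 1)) w s := by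
    rw [hC'def]
    have := hC.conj x02
    rw [map_add, map_add, act X02, act X02, act X02, if_pos rfl, if_neg h02, if_neg h12, actw X02] at this
    exact this
  have hd : ⁅x20, S1⁆ = A * S1⁻¹ := by rw [commutatorElement_def, hAdef]
  have hH : ⁅x12, ⁅x20, S1⁆⁆ = C * A⁻¹ := by
    rw [hd, commutatorElement_def]
    have e1 : x12 * (A * S1⁻¹) * x12⁻¹ * (A * S1⁻¹)⁻¹ = (x12 * A * x12⁻¹) * (x12 * S1 * x12⁻¹)⁻¹ * S1 * A⁻¹ := by group
    rw [e1, hbS, ← hCdef]
    group
  obtain ⟨z, hz⟩ : ∃ z, z = ⁅⁅x01, x12⁆, ⁅x12, ⁅x20, S1⁆⁆⁆ := ⟨_, rfl⟩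
  have hz' : z = C' * A'⁻¹ * A * C⁻¹ := by
    rw [hz, hH, c02, commutatorElement_def, hC'def, hA'def]
    group
  -- the value
  have k1 : s * F.ε + F.σ s + F.B w w = 0 := by
    have := congrArg (fun x => F.ε * x) h1
    simp only [mul_add, mul_zero] at this
    rw [← mul_assoc, ← mul_assoc, mul_inv_cancel₀ hε, one_mul, one_mul, mul_comm F.ε s] at this
    exact this
  have vC : (C : V ≃ₗ[K] V) (f 0 - F.ε • w + F.σ s • (e 0 + (e 2 + e 1))) = f 0 := by
    rw [hC]
    simp only [F.B_sub_left, F.B_add_left, F.B_smul_left, F.B_add_right, hee, hef, hfe, hwe, hfw, hew]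
    simp only [if_pos, if_neg h02, if_neg h01, if_neg h12, mul_zero, sub_zero, add_zero, zero_add, mul_one, zero_sub]
    match_scalars
    · ring
    · ring
    · field_simp; linear_combination k1
    · field_simp; linear_combination k1
    · field_simp; linear_combination k1
  have vA : (A : V ≃ₗ[K] V) (f 0 - F.ε • w + F.σ s • (e 0 + (e 2 + e 1))) = f 0 + F.σ s • e 1 := by
    rw [hA]
    simp only [F.B_sub_left, F.B_add_left, F.B_smul_left, F.B_add_right, hee, hef, hfe, hwe, hfw, hew]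
    simp only [if_pos, if_neg h02, if_neg h01, if_neg h12, mul_zero, sub_zero, add_zero, zero_add, mul_one, zero_sub]
    match_scalars
    · ring
    · ring
    · field_simp; linear_combination k1
    · field_simp; linear_combination k1
    · ring
  have vA' : (A' : V ≃ₗ[K] V) (f 0 - (2 * F.ε) • w + (2 * F.σ s) • (e 0 + (e 2 + e 0)) + F.σ s • e 1) =
      f 0 + F.σ s • e 1 := by
    rw [hA']
    simp only [F.B_sub_left, F.B_add_left, F.B_smul_left, F.B_add_right, hee, hef, hfe, hwe, hfw, hew]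
    simp only [if_pos, if_neg h02, if_neg h01, if_neg h12, mul_zero, sub_zero, add_zero, zero_add, mul_one, zero_sub]
    match_scalars
    · ring
    · ring
    · field_simp; linear_combination 4 * k1
    · field_simp; linear_combination 2 * k1
    · ring
  have vC' : (C' : V ≃ₗ[K] V) (f 0 - (2 * F.ε) • w + (2 * F.σ s) • (e 0 + (e 2 + e 0)) + F.σ s • e 1) =
      f 0 - F.σ s • e 1 := by
    rw [hC']
    simp only [F.B_sub_left, F.B_add_left, F.B_smul_left, F.B_add_right, hee, hef, hfe, hwe, hfw, hew]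
    simp only [if_pos, if_neg h02, if_neg h01, if_neg h12, mul_zero, sub_zero, add_zero, zero_add, mul_one, zero_sub]
    match_scalars
    · ring
    · ring
    · field_simp; linear_combination 4 * k1
    · field_simp; linear_combination 2 * k1
    · field_simp; linear_combination 2 * k1
  have vz : (z : V ≃ₗ[K] V) (f 0) = f 0 - F.σ s • e 1 := by
    rw [hz', mul_apply', mul_apply', mul_apply']
    have e1 : ((C⁻¹ : F.iso) : V ≃ₗ[K] V) (f 0) = f 0 - F.ε • w + F.σ s • (e 0 + (e 2 + e 1)) := by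
      conv_lhs => rw [← vC]
      exact inv_apply' _ _
    have e2 : ((A'⁻¹ : F.iso) : V ≃ₗ[K] V) (f 0 + F.σ s • e 1) =
        f 0 - (2 * F.ε) • w + (2 * F.σ s) • (e 0 + (e 2 + e 0)) + F.σ s • e 1 := by
      conv_lhs => rw [← vA']
      exact inv_apply' _ _
    rw [e1, vA, e2, vC']
  have hσs : F.σ s ≠ 0 := by
    intro h
    apply hs
    have := F.σσ s
    rw [h, map_zero] at this
    exact this.symm
  have hne2 : e 2 ≠ 0 := by
    intro h
    have := hef 2 2
    rw [h, F.B_zero_left, if_pos rfl] at this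
    exact zero_ne_one this
  have : Nontrivial V := ⟨e 2, 0, hne2⟩
  have hnc : x21 * z ≠ z * x21 := by
    intro h
    have h3 := congrArg (fun g : F.iso => (g : V ≃ₗ[K] V) (f 0)) h
    simp only [mul_apply'] at h3
    have h4 : (x21 : V ≃ₗ[K] V) (f 0) = f 0 := by
      rw [X21, hff, hfe, if_neg h02]; simp
    rw [h4, vz, map_sub, h4, map_smul, act X21, if_pos rfl] at h3
    have h5 : F.σ s • e 2 = 0 := by
      have h6 : f 0 - F.σ s • (e 1 + e 2) - (f 0 - F.σ s • e 1) = -(F.σ s • e 2) := by module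
      rw [h3, sub_self] at h6
      exact neg_eq_zero.1 h6.symm
    rcases smul_eq_zero.1 h5 with h6 | h6
    · exact hσs h6
    · exact hne2 h6
  -- the `p`-group
  have hQ : IsPGroup p ((flagU (frameFlag F e) (frameFlag_anti hee)).comap F.iso.subtype) :=
    (isPGroup_flagU rfl (n := 7) rfl).comap_of_injective _ F.iso.subtype_injective
  have hwP : w ∈ frameFlag F e 3 := ⟨⟨mem_kerlf.2 (hwe 0), mem_kerlf.2 (hwe 1)⟩, mem_kerlf.2 (hwe 2)⟩
  have memS : ∀ {g : F.iso} {c : V}, IsS F g c w s → c ∈ frameFlag F e 4 →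
      g ∈ (flagU (frameFlag F e) (frameFlag_anti hee)).comap F.iso.subtype := by
    intro g c hg hc
    have hc3 : c ∈ frameFlag F e 3 := frameFlag_anti hee 3 hc
    have h3 : ∀ v, (g : V ≃ₗ[K] V) v - v ∈ frameFlag F e 3 := by
      intro v
      rw [hg]
      have e1 : v + F.B v c • w - (F.ε⁻¹ * F.B v w) • c + (s * F.B v c) • c - v =
        F.B v c • w + (s * F.B v c - F.ε⁻¹ * F.B v w) • c := by module
      rw [e1]
      exact add_mem (Submodule.smul_mem _ _ hwP) (Submodule.smul_mem _ _ hc3)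
    have h4 : ∀ v ∈ frameFlag F e 3, F.B v c = 0 := by
      intro v hv
      have h5 : Submodule.span K {e 0, e 1, e 2} ≤ LinearMap.ker (F.lf v) := by
        apply span_le_ker
        rintro x (rfl | rfl | rfl)
        · exact F.B_eq_zero (mem_kerlf.1 hv.1.1)
        · exact F.B_eq_zero (mem_kerlf.1 hv.1.2)
        · exact F.B_eq_zero (mem_kerlf.1 hv.2)
      exact F.B_eq_zero (mem_kerlf.1 (h5 hc))
    have h5 : ∀ v ∈ frameFlag F e 4, F.B v w = 0 := by
      intro v hv
      have h6 : Submodule.span K {e 0, e 1, e 2} ≤ LinearMap.ker (F.lf w) := by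
        apply span_le_ker
        rintro x (rfl | rfl | rfl) <;> exact hew _
      exact mem_kerlf.1 (h6 hv)
    have h6 : ∀ v ∈ frameFlag F e 4, (g : V ≃ₗ[K] V) v - v = 0 := by
      intro v hv
      rw [hg, h4 v (frameFlag_anti hee 3 hv), h5 v hv]
      simp
    refine mem_flagU (hV := frameFlag_anti hee) fun i => ?_
    match i with
    | 0 => intro v _; exact (h3 v).1.1
    | 1 => intro v _; exact (h3 v).1
    | 2 => intro v _; exact h3 v
    | 3 =>
      intro v hv
      change (g : V ≃ₗ[K] V) v - v ∈ _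
      rw [hg, h4 v hv]
      have e1 : v + (0 : K) • w - (F.ε⁻¹ * F.B v w) • c + (s * 0) • c - v = (-(F.ε⁻¹ * F.B v w)) • c := by module
      rw [e1]
      exact Submodule.smul_mem _ _ hc
    | 4 => intro v hv; change (g : V ≃ₗ[K] V) v - v ∈ _; rw [h6 v hv]; exact zero_mem _
    | 5 => intro v hv; change (g : V ≃ₗ[K] V) v - v ∈ _; rw [h6 v (frameFlag_anti hee 4 hv)]; exact zero_mem _
    | 6 =>
      intro v hv
      change (g : V ≃ₗ[K] V) v - v ∈ _
      rw [h6 v (frameFlag_anti hee 4 (frameFlag_anti hee 5 hv))]; exact zero_mem _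
    | (n + 7) =>
      intro v hv
      have : v = 0 := hv
      rw [this, map_zero, sub_zero]
      exact zero_mem _
  have e0m : e 0 ∈ frameFlag F e 4 := Submodule.subset_span (by simp)
  have e1m : e 1 ∈ frameFlag F e 4 := Submodule.subset_span (by simp)
  have e2m : e 2 ∈ frameFlag F e 4 := Submodule.subset_span (by simp)
  have mS : S1 ∈ _ := memS hS1 e0m
  have mA : A ∈ _ := memS hA (add_mem e0m e2m)
  have anti : Antitone (frameFlag F e) := antitone_nat_of_succ_le (frameFlag_anti hee)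
  have m01 : x01 ∈ (flagU (frameFlag F e) (frameFlag_anti hee)).comap F.iso.subtype := by
    refine mem_flagU (hV := frameFlag_anti hee) fun i v hv => ?_
    change (x01 : V ≃ₗ[K] V) v - v ∈ _
    have e6 : e 0 ∈ frameFlag F e 6 := Submodule.subset_span rfl
    rcases Nat.eq_zero_or_pos i with rfl | hi
    · rw [X01]
      apply mem_kerlf.2
      simp only [F.B_sub_left, F.B_add_left, F.B_smul_left, hee, hfe, if_neg h01.symm, mul_zero, add_zero, sub_zero, sub_self]
    · have hv1 : F.B v (e 0) = 0 := mem_kerlf.1 (anti hi hv)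
      have hval : (x01 : V ≃ₗ[K] V) v - v = F.B v (f 1) • e 0 := by
        rw [X01, hv1]; simp
      rw [hval]
      rcases Nat.lt_or_ge i 6 with hi6 | hi6
      · exact Submodule.smul_mem _ _ (anti hi6 e6)
      · have h5 : Submodule.span K {e 0} ≤ LinearMap.ker (F.lf (f 1)) := by
          apply span_le_ker
          rintro x rfl
          rw [hef, if_neg h01]
        have h6 : F.B v (f 1) = 0 := mem_kerlf.1 (h5 (anti hi6 hv))
        rw [h6, zero_smul]
        exact zero_mem _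
  have m12 : x12 ∈ (flagU (frameFlag F e) (frameFlag_anti hee)).comap F.iso.subtype := by
    refine mem_flagU (hV := frameFlag_anti hee) fun i v hv => ?_
    change (x12 : V ≃ₗ[K] V) v - v ∈ _
    have e5 : e 1 ∈ frameFlag F e 5 := Submodule.subset_span (by simp)
    rcases Nat.lt_or_ge i 2 with hi | hi
    · refine anti (show i + 1 ≤ 2 by omega) ?_
      rw [X12]
      refine ⟨mem_kerlf.2 ?_, mem_kerlf.2 ?_⟩ <;>
      simp only [F.B_sub_left, F.B_add_left, F.B_smul_left, hee, hfe, if_neg h02.symm, if_neg h12.symm, mul_zero, add_zero,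
        sub_zero, sub_self]
    · have hv1 : F.B v (e 1) = 0 := mem_kerlf.1 (anti hi hv).2
      have hval : (x12 : V ≃ₗ[K] V) v - v = F.B v (f 2) • e 1 := by
        rw [X12, hv1]; simp
      rw [hval]
      rcases Nat.lt_or_ge i 5 with hi6 | hi6
      · exact Submodule.smul_mem _ _ (anti hi6 e5)
      · have h5 : Submodule.span K {e 0, e 1} ≤ LinearMap.ker (F.lf (f 2)) := by
          apply span_le_ker
          rintro x (rfl | rfl)
          · rw [hef, if_neg h02]
          · rw [hef, if_neg h12]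
        have h6 : F.B v (f 2) = 0 := mem_kerlf.1 (h5 (anti hi6 hv))
        rw [h6, zero_smul]
        exact zero_mem _
  have md : ⁅x20, S1⁆ ∈ (flagU (frameFlag F e) (frameFlag_anti hee)).comap F.iso.subtype := by
    rw [hd]
    exact mul_mem mA (inv_mem mS)
  have hcom : ∀ g h : F.iso, ⁅g, h⁆ ∈ _root_.commutator F.iso := fun g h =>
    commutator_mem_commutator (mem_top g) (mem_top h)
  refine ⟨_, hQ, x01, m01, x12, m12, x12, m12, _, md, ?_, ?_, ?_, hcom _ _, x21, ?_, by rw [← hz]; exact hnc⟩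
  · rw [← c01]; exact hcom _ _
  · rw [← c12]; exact hcom _ _
  · rw [← c12]; exact hcom _ _
  · rw [← c21]; exact hcom _ _

end frame

end form

section rows

open Cfsg.Agent.H477.HC.CForm

variable {K : Type u} [Field K] {p : ℕ} [Fact p.Prime] [CharP K p]

theorem dd_psp {m : ℕ} (hm : 3 ≤ m) : DD p (PSp m K) := by
  obtain ⟨n, rfl⟩ : ∃ n, m = 3 + n := ⟨m - 3, by omega⟩
  obtain ⟨e, f, j, h⟩ := frm_sp (K := K) (k := 3) (n := n) rfl
  have h1 : DDCN p (spF K (3 + n)).iso (_root_.commutator (spF K (3 + n)).iso) :=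
    ddc_frame (w := 0) (s := 1) h.hee h.hff h.hef h.hQe h.hQf (fun i => CForm.B_zero_left _ _)
      (fun i => CForm.B_zero_left _ _) one_ne_zero (by simp) (by simp)
  exact (h1.top.of_equiv (isoSp (3 + n) K).symm).quot

/-- quadratic forms -/
theorem ddc_quad {ι : Type} [Fintype ι] [DecidableEq ι] (F : CForm K (ι → K)) (hσ : ∀ x, F.σ x = x) (hε : F.ε = 1)
    (hT : ∀ x, F.T x = x) {X : Type v} [AddCommGroup X] [Module K X] {F' : CForm K X} {e f : Fin 3 → ι → K}
    {j : X →ₗ[K] (ι → K)} (h : Frm F F' e f j) {x : X} (hx : F'.Q x ≠ 0) :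
    DD p (POmega K F.Q) := by
  have hBB : ∀ u v, F.B u v = F.Q (u + v) - F.Q u - F.Q v := fun u v => by rw [F.Q_add, hT]; ring
  have hww : F.B (j x) (j x) = 2 * F.Q (j x) := by
    rw [hBB, ← two_smul K (j x), F.Q_smul, hσ]; ring
  have h1 : DDCN p F.iso (_root_.commutator F.iso) :=
    ddc_frame (w := j x) (s := -F.Q (j x)) h.hee h.hff h.hef h.hQe h.hQf (h.hje x) (h.hjf x)
      (neg_ne_zero.2 (by rw [h.hjQ]; exact hx)) (by rw [hσ, hε, hww]; ring) (fun y => by rw [hT, hσ, hσ]; ring)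
  exact (DDCN.comm (isoQuad F hBB).symm h1).ddc.quot

theorem dd_oplus {m : ℕ} (hm : 4 ≤ m) : DD p (POmega K (quadFormPlus m K)) := by
  obtain ⟨n, rfl⟩ : ∃ n, m = 3 + (n + 1) := ⟨m - 4, by omega⟩
  obtain ⟨e, f, j, h⟩ := frm_plus (K := K) (k := 3) (n := n + 1) rfl
  exact ddc_quad (plusF K (3 + (n + 1))) (fun x => rfl) rfl (fun x => rfl) h
    (x := Pi.single (.inl 0) 1 + Pi.single (.inr 0) 1) (by
      simp [plusF_Q, quadFormPlus, Pi.single_apply])

theorem dd_oodd (h2 : (2 : K) ≠ 0) {m : ℕ} (hm : 3 ≤ m) : DD p (POmega K (quadFormOdd m K)) := by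
  obtain ⟨n, rfl⟩ : ∃ n, m = 3 + n := ⟨m - 3, by omega⟩
  obtain ⟨e, f, j, h⟩ := frm_odd (K := K) h2 (k := 3) (n := n) rfl
  exact ddc_quad (oddF K (3 + n) h2) (fun x => rfl) rfl (fun x => rfl) h
    (x := Pi.single (.inl ()) 1) (by simp [oddF_Q, quadFormOdd, Pi.single_apply])

theorem dd_ominus [Finite K] {a b : K} (hab : ∀ z₁ z₂ : K, z₁ ^ 2 + a * z₁ * z₂ + b * z₂ ^ 2 = 0 → z₁ = 0 ∧ z₂ = 0)
    {m : ℕ} (hm : 3 ≤ m) : DD p (POmega K (quadFormMinus m K a b)) := by
  obtain ⟨n, rfl⟩ : ∃ n, m = 3 + n := ⟨m - 3, by omega⟩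
  obtain ⟨e, f, j, h⟩ := frm_minus (K := K) hab (k := 3) (n := n) rfl
  exact ddc_quad (minusF K (3 + n) a b hab) (fun x => rfl) rfl (fun x => rfl) h
    (x := Pi.single (.inr 0) 1) (by simp [minusF_Q, quadFormMinus, Pi.single_apply])

end rows

end Cfsg.Agent.H652.HT
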